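import Cfsg.Agent.H950.L16.Stab
import Cfsg.Agent.TwoFusion.SLTwoFacts
import Cfsg.Agent.ClassicalGeometry.PSL2Basic

/-!
# S5916, dimension 32: the group theory of step A (helper261)

`sl_top` : two elements of order 17 of `SL₂(16)` generating different subgroups generate `SL₂(16)`; `grpA`.
-/

set_option autoImplicit false
set_option maxRecDepth 100000

namespace Cfsg.Agent.H261.D32

open Matrix Cfsg
open Cfsg.Agent.H939.L64 (KK E2 LK rE rE_apply rE_mul rE_one fixS add_KK)
open Cfsg.Agent.H950.L16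

section

variable {F : Type} [Field F] [Fintype F]

/-- subgroups of `SL₂(16)` with two Sylow 17-subgroups -/
theorem sl_top (hF : Fintype.card F = 16) {M : Subgroup (SpecialLinearGroup (Fin 2) F)}
    {y y' : SpecialLinearGroup (Fin 2) F} (hy : y ∈ M) (hy' : y' ∈ M) (ho : orderOf y = 17) (ho' : orderOf y' = 17)
    (hn : y' ∉ Subgroup.zpowers y) : M = ⊤ := by
  classical
  have h17 : Fact (Nat.Prime 17) := ⟨by norm_num⟩
  have hfin : Finite (SpecialLinearGroup (Fin 2) F) := Finite.of_injective _ Subtype.val_injective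
  have hG : Nat.card (SpecialLinearGroup (Fin 2) F) = 4080 := by
    rw [ClassicalGeometry.PSL2Basic.card_SL2, hF]
    norm_num
  have hMd : Nat.card M ∣ 4080 := hG ▸ Subgroup.card_subgroup_dvd_card M
  have h17M : 17 ∣ Nat.card M := by
    have h1 : orderOf (⟨y, hy⟩ : M) = 17 := by rw [Subgroup.orderOf_mk, ho]
    rw [← h1]
    exact orderOf_dvd_natCard _
  -- the order of a Sylow subgroup
  have hQ : ∀ Q : Sylow 17 M, Nat.card Q = 17 := by
    intro Q
    rw [Q.card_eq_multiplicity]
    have h1 : 1 ≤ (Nat.card M).factorization 17 :=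
      (Nat.Prime.dvd_iff_one_le_factorization h17.out Nat.card_pos.ne').1 h17M
    have h2 : (Nat.card M).factorization 17 ≤ (4080 : ℕ).factorization 17 :=
      (Nat.factorization_le_iff_dvd Nat.card_pos.ne' (by norm_num)).2 hMd 17
    have h3 : ¬ 17 ^ 2 ∣ (4080 : ℕ) := by norm_num
    have h4 : (4080 : ℕ).factorization 17 < 2 := by
      by_contra h5
      exact h3 ((Nat.Prime.pow_dvd_iff_le_factorization h17.out (by norm_num)).2 (by omega))
    have h5 : (Nat.card M).factorization 17 = 1 := by omega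
    rw [h5, pow_one]
  -- a Sylow subgroup containing an element of order 17 is generated by it
  have hgen : ∀ (Q : Sylow 17 M) (z : M), orderOf z = 17 → z ∈ Q → (Q : Subgroup M) = Subgroup.zpowers z := by
    intro Q z hz hzQ
    symm
    apply Subgroup.eq_of_le_of_card_ge
    · rw [Subgroup.zpowers_le]
      exact hzQ
    · rw [Nat.card_zpowers, hz]
      exact (hQ Q).le
  have hex : ∀ z : M, orderOf z = 17 → ∃ Q : Sylow 17 M, z ∈ Q := by
    intro z hz
    have h1 : IsPGroup 17 (Subgroup.zpowers z) := IsPGroup.of_card (n := 1) (by rw [Nat.card_zpowers, hz, pow_one])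
    obtain ⟨Q, hQ⟩ := h1.exists_le_sylow
    exact ⟨Q, hQ (Subgroup.mem_zpowers z)⟩
  have hz : orderOf (⟨y, hy⟩ : M) = 17 := by rw [Subgroup.orderOf_mk, ho]
  have hz' : orderOf (⟨y', hy'⟩ : M) = 17 := by rw [Subgroup.orderOf_mk, ho']
  obtain ⟨Q, hQy⟩ := hex _ hz
  obtain ⟨Q', hQy'⟩ := hex _ hz'
  have hne : Nat.card (Sylow 17 M) ≠ 1 := by
    intro h1
    have h2 : Subsingleton (Sylow 17 M) := (Nat.card_eq_one_iff_unique.1 h1).1
    have h3 : Q' = Q := Subsingleton.elim _ _
    rw [h3] at hQy'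
    have h4 : (⟨y', hy'⟩ : M) ∈ Subgroup.zpowers (⟨y, hy⟩ : M) := by
      rw [← hgen Q _ hz hQy]
      exact hQy'
    obtain ⟨i, hi⟩ := Subgroup.mem_zpowers_iff.1 h4
    exact hn (Subgroup.mem_zpowers_iff.2 ⟨i, by
      have := congrArg Subtype.val hi
      exact this⟩)
  have hcard : Nat.card M = Nat.card Q * (Q : Subgroup M).index := (Subgroup.card_mul_index _).symm
  rw [hQ Q] at hcard
  have hmod := card_sylow_modEq_one 17 M
  have hdiv : Nat.card (Sylow 17 M) ∣ (Q : Subgroup M).index := Sylow.card_dvd_index Q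
  have h240 : (Q : Subgroup M).index ∣ 240 := by
    have h1 : 17 * (Q : Subgroup M).index ∣ 17 * 240 := by
      rw [← hcard]
      exact hMd
    exact Nat.dvd_of_mul_dvd_mul_left (by norm_num) h1
  have h120 : Nat.card (Sylow 17 M) = 120 := by
    have key : ∀ n ∈ Nat.divisors 240, n % 17 = 1 → n = 1 ∨ n = 120 := by decide
    have h1 : Nat.card (Sylow 17 M) % 17 = 1 := hmod
    rcases key _ (Nat.mem_divisors.2 ⟨hdiv.trans h240, by norm_num⟩) h1 with h2 | h2
    · exact absurd h2 hne
    · exact h2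
  obtain ⟨k, hk⟩ := hdiv
  rw [h120] at hk
  have hidx : M.index * Nat.card M = 4080 := by
    rw [← hG]
    exact Subgroup.index_mul_card M
  rw [hcard, hk] at hidx
  have h2 : M.index * k = 2 := by
    have : 2040 * (M.index * k) = 2040 * 2 := by
      calc 2040 * (M.index * k) = M.index * (17 * (120 * k)) := by ring
        _ = 2040 * 2 := hidx
    exact Nat.eq_of_mul_eq_mul_left (by norm_num) this
  have h3 : M.index ∣ 2 := ⟨k, h2.symm⟩
  rcases (Nat.dvd_prime Nat.prime_two).1 h3 with h4 | h4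
  · exact Subgroup.index_eq_one.1 h4
  · have hnor : M.Normal := Subgroup.normal_of_index_eq_two h4
    have hcom : commutator (SpecialLinearGroup (Fin 2) F) ≤ M := by
      have h5 : Nat.card (SpecialLinearGroup (Fin 2) F ⧸ M) = 2 := h4
      have h6 : IsCyclic (SpecialLinearGroup (Fin 2) F ⧸ M) := isCyclic_of_prime_card (p := 2) h5
      have h7 : ∀ a b : SpecialLinearGroup (Fin 2) F ⧸ M, a * b = b * a := fun a b =>
        (IsCyclic.commGroup (α := SpecialLinearGroup (Fin 2) F ⧸ M)).mul_comm a b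
      rw [commutator_def, Subgroup.commutator_le]
      intro a _ b _
      rw [← QuotientGroup.eq_one_iff]
      have h8 := h7 (a : SpecialLinearGroup (Fin 2) F ⧸ M) b
      rw [commutatorElement_def]
      simp only [QuotientGroup.mk_mul, QuotientGroup.mk_inv]
      rw [h8, mul_inv_cancel_right, mul_inv_cancel]
    rw [TwoFusion.SLTwoFacts.commutator_eq_top (by rw [hF]; norm_num)] at hcom
    exact top_le_iff.1 hcom

end

/-- an involution normalising a group of order 17 centralises or inverts it -/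
theorem comm_or {G : Type*} [Group G] {Y c t : G} (hY : orderOf Y = 17) (hc : c * c = 1) (ht : t * Y * t⁻¹ = Y⁻¹)
    {i : ℤ} (h : c * Y * c⁻¹ = Y ^ i) : Commute c Y ∨ Commute (c * t) Y := by
  have h2 : Y = Y ^ (i * i) := by
    have h3 : c * (c * Y * c⁻¹) * c⁻¹ = Y := by
      have h5 : c⁻¹ = c := inv_eq_of_mul_eq_one_left hc
      rw [h5]
      calc c * (c * Y * c) * c = (c * c) * Y * (c * c) := by group
        _ = Y := by rw [hc, one_mul, mul_one]
    rw [h, ← conj_zpow, h, ← _root_.zpow_mul] at h3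
    exact h3.symm
  have h3 : (17 : ℤ) ∣ i * i - 1 := by
    have h4 : Y ^ (i * i - 1) = 1 := by
      rw [_root_.zpow_sub_one, ← h2, mul_inv_cancel]
    have h5 := orderOf_dvd_iff_zpow_eq_one.2 h4
    rw [hY] at h5
    exact_mod_cast h5
  have h4 : (17 : ℤ) ∣ (i - 1) * (i + 1) := by
    have : (i - 1) * (i + 1) = i * i - 1 := by ring
    rw [this]
    exact h3
  have h17 : _root_.Prime (17 : ℤ) := by
    have := Nat.prime_iff_prime_int.1 (show Nat.Prime 17 by norm_num)
    exact_mod_cast this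
  rcases h17.dvd_or_dvd h4 with h5 | h5
  · left
    have h6 : Y ^ (i - 1) = 1 := by
      apply orderOf_dvd_iff_zpow_eq_one.1
      rw [hY]
      exact_mod_cast h5
    have h7 : Y ^ i = Y := by
      rw [_root_.zpow_sub_one, mul_inv_eq_one] at h6
      exact h6
    rw [h7] at h
    exact mul_inv_eq_iff_eq_mul.1 h
  · right
    have h6 : Y ^ (i + 1) = 1 := by
      apply orderOf_dvd_iff_zpow_eq_one.1
      rw [hY]
      exact_mod_cast h5
    have h7 : Y ^ i = Y⁻¹ := by
      rw [_root_.zpow_add_one] at h6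
      exact eq_inv_of_mul_eq_one_left h6
    rw [h7] at h
    show c * t * Y = Y * (c * t)
    rw [← mul_inv_eq_iff_eq_mul]
    calc c * t * Y * (c * t)⁻¹ = c * (t * Y * t⁻¹) * c⁻¹ := by group
      _ = (c * Y * c⁻¹)⁻¹ := by rw [ht]; group
      _ = Y := by rw [h, inv_inv]

/-- an involution in `⟨Y⟩`, `Y` of order 17, is trivial -/
theorem one_of_mem {G : Type*} [Group G] {Y c : G} (hY : Y ^ 17 = 1) (hc : c * c = 1)
    (h : c ∈ Subgroup.zpowers Y) : c = 1 := by
  obtain ⟨i, hi⟩ := Subgroup.mem_zpowers_iff.1 h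
  have h2 : c ^ 17 = 1 := by
    rw [← hi, ← zpow_natCast, ← _root_.zpow_mul, mul_comm, _root_.zpow_mul, zpow_natCast, hY, _root_.one_zpow]
  have h3 : c ^ 2 = 1 := by rw [pow_two]; exact hc
  have h4 : c ^ 17 = (c ^ 2) ^ 8 * c := by rw [← pow_mul, ← pow_succ]
  rw [h2, h3, one_pow, one_mul] at h4
  exact h4.symm

/-- the abstract part -/
theorem comm_all {F : Type} [Field F] [Fintype F] (hF : Fintype.card F = 16) {G : Type*} [Group G]
    {f : SpecialLinearGroup (Fin 2) F →* G} (hf : Function.Injective f) {y : SpecialLinearGroup (Fin 2) F}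
    (ho : orderOf y = 17) {c t r : G} (hc : c * c = 1) (ht : t * f y * t⁻¹ = (f y)⁻¹)
    (τ : SpecialLinearGroup (Fin 2) F ≃* SpecialLinearGroup (Fin 2) F) (hτ : ∀ s, f (τ s) = c * f s * c⁻¹)
    (hnc : ¬ Commute c (f y)) (hnct : ¬ Commute (c * t) (f y)) (hrc : Commute r c) (hry : Commute r (f y)) :
    ∀ s, Commute r (f s) := by
  have hYo : orderOf (f y) = 17 := by rw [orderOf_injective f hf, ho]
  have hn : τ y ∉ Subgroup.zpowers y := by
    intro hm
    obtain ⟨i, hi⟩ := Subgroup.mem_zpowers_iff.1 hm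
    have hfy' := hτ y
    rw [← hi, map_zpow] at hfy'
    rcases comm_or hYo hc ht hfy'.symm with h8 | h8
    · exact hnc h8
    · exact hnct h8
  let M : Subgroup (SpecialLinearGroup (Fin 2) F) := (Subgroup.centralizer {r}).comap f
  have hM : ∀ z, z ∈ M ↔ Commute r (f z) := by
    intro z
    show f z ∈ Subgroup.centralizer {r} ↔ _
    rw [Subgroup.mem_centralizer_singleton_iff]
    exact ⟨fun h => h.symm, fun h => h.symm⟩
  have hytau : Commute r (f (τ y)) := by
    rw [hτ y]
    exact (hrc.mul_right hry).mul_right hrc.inv_right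
  have htop := sl_top hF (M := M) ((hM y).2 hry) ((hM _).2 hytau) ho (by
    have := orderOf_injective τ.toMonoidHom τ.injective y
    exact this.trans ho) hn
  exact fun s => (hM s).1 (by rw [htop]; trivial)

/-- **the group theory of step A** -/
theorem grpA {F : Type} [Field F] [Fintype F] (hF : Fintype.card F = 16) {H : Subgroup E2}
    {f : SpecialLinearGroup (Fin 2) F →* E2} {y : SpecialLinearGroup (Fin 2) F} (S : Sit H f y) (u : KK → E2)
    (hu : ∀ a b, a ^ 16 = a → b ^ 16 = b → u (a + b) = u a * u b) (hinj : ∀ a, a ^ 16 = a → u a = 1 → a = 0)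
    (hH : ∀ a, a ^ 16 = a → u a ∈ H) (h1 : u 1 * f y * (u 1)⁻¹ = (f y)⁻¹) (r : E2) (hr : r ≠ 1)
    (hry : Commute r (f y)) (hru : ∀ a, a ^ 16 = a → Commute r (u a)) (h0 : fixS (rE.comp f) ≠ ⊥) : False := by
  classical
  obtain ⟨ι⟩ := exists_iota hF
  -- an element of `F` different from `0`, `1`
  obtain ⟨x, hx0, hx1⟩ : ∃ x : F, x ≠ 0 ∧ x ≠ 1 := by
    by_contra hcon
    push Not at hcon
    have h2 : (Finset.univ : Finset F) ⊆ {0, 1} := by
      intro x _
      rw [Finset.mem_insert, Finset.mem_singleton]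
      by_cases hx : x = 0
      · exact Or.inl hx
      · exact Or.inr (hcon x hx)
    have h3 := Finset.card_le_card h2
    rw [Finset.card_univ, hF] at h3
    have h4 : ({0, 1} : Finset F).card ≤ 2 := Finset.card_le_two
    omega
  have hpow : ∀ z : F, (ι z) ^ 16 = ι z := by
    intro z
    rw [← map_pow, ← hF, FiniteField.pow_card]
  have h16 : (1 : KK) ^ 16 = 1 := one_pow _
  have hs := hpow x
  have hs1 : (ι x + 1) ^ 16 = ι x + 1 := by
    rw [← map_one ι, ← map_add]
    exact hpow _
  have hu0 : u 0 = 1 := by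
    have h2 := hu 0 0 (by simp) (by simp)
    rw [add_zero] at h2
    exact mul_eq_left.1 h2.symm
  have hsq : ∀ a, a ^ 16 = a → u a * u a = 1 := by
    intro a ha
    rw [← hu a a ha ha, add_KK, hu0]
  have hY17 : f y ^ 17 = 1 := by rw [← map_pow, ← S.ord, pow_orderOf_eq_one, map_one]
  -- an element `u a` commuting with `f y` is trivial
  have hcen : ∀ a, a ^ 16 = a → Commute (u a) (f y) → a = 0 := fun a ha hc =>
    hinj a ha (one_of_mem hY17 (hsq a ha) (S.cen _ (hH a ha) hc))
  obtain ⟨τ, hτ⟩ := S.nor (u (ι x)) (hH _ hs)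
  have hnc : ¬ Commute (u (ι x)) (f y) := fun h8 => hx0 ((map_eq_zero ι).1 (hcen _ hs h8))
  have hnct : ¬ Commute (u (ι x) * u 1) (f y) := by
    intro h8
    rw [← hu _ _ hs h16] at h8
    have h9 := hcen _ hs1 h8
    apply hx1
    have h10 : ι (x + 1) = 0 := by rw [map_add, map_one, h9]
    have h11 := (map_eq_zero ι).1 h10
    have h12 : (1 : F) + 1 = 0 := by
      have := two_eq_zero hF
      rw [one_add_one_eq_two, this]
    calc x = x + (1 + 1) := by rw [h12, add_zero]
      _ = (x + 1) + 1 := by ring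
      _ = 1 := by rw [h11, zero_add]
  have hall : ∀ s, Commute r (f s) := comm_all hF S.inj S.ord (hsq _ hs) h1 τ hτ hnc hnct (hru _ hs) hry
  apply hr
  refine eq_one_of_comm S h0 (fix_ne_top S) (fun _ hh _ hv => fix_stable S hh hv) ?_ hall
  intro v hv s
  show rE (f s) (rE r v) = rE r v
  rw [← rE_mul, ← (hall s).eq, rE_mul, mem_fix.1 hv]

end Cfsg.Agent.H261.D32
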